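import Cfsg.Agent.H492.IMJ4
import Cfsg.Agent.H941.Imc.Sph
import Cfsg.Agent.H653.Spor.J4Dz
import Cfsg.Agent.H794.ImcTools

/-!
# The Malle–Navarro character condition for `J₄` (helper941)

`imc_j4` : for every prime `p` dividing `|J₄|` some irreducible character of degree divisible by `p` has a vector fixed by a
Sylow `p`-subgroup.
* `p = 2` : the constituent of degree 1776888 of the permutation character of degree 173067389 (helper492);
* `p = 3, 7, 11, 23, 29, 31, 37, 43` : characters of defect zero (helper653);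
* `p = 5` : the prime divides the order exactly once.
-/

set_option autoImplicit false
set_option linter.style.longLine false

open Cfsg

noncomputable section

namespace Cfsg.Agent.H941.Imc.JFour

open Cfsg.Agent.J4 Cfsg.Agent.J4.M24Hom Cfsg.Agent.J4.Rel Cfsg.Agent.J4.Index
  Cfsg.Agent.J4.Upper1 Cfsg.Agent.J4.Upper
  Cfsg.Agent.J4.Pres Cfsg.Agent.J4.Rep112 Cfsg.Agent.H492.NodeHecke Cfsg.Agent.H492.JFour
  Cfsg.Agent.H492.JFourDis Cfsg.Agent.H492.IMJ4 Cfsg.Agent.H625.SylConst Cfsg.Agent.H794.Imc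

universe u

/-- `H492.IMJ4.main` with the constituents of the permutation character. -/
theorem main (v : Fin 7 → ℂ) (μ κ : ℂ) (hv0 : v 0 = 1)
    (hv : ∀ i, ∑ j, (PP i j : ℂ) * v j = μ * v i)
    (hu : ∀ x : Fin 7 → ℂ, (∀ i, ∑ j, (PP i j : ℂ) * x j = μ * x i) → ∀ i, x i = x 0 * v i)
    (hκ : ∑ i, (ss i : ℂ) * v i ^ 2 = κ) (hκ0 : κ ≠ 0) :
    ∃ χ : IrrCharacter Cfsg.Spor.J4, (χ : Cfsg.Spor.J4 → ℂ) 1 * κ = 173067389 ∧
      ∃ B : Subgroup Cfsg.Spor.J4, B.index = 173067389 ∧ Fix B (χ : Cfsg.Spor.J4 → ℂ) := by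
  have := exact.1
  obtain ⟨χ, hχ, hF⟩ := Sph.exists_irr nd TrioAll.K hK AA hA hNP (by norm_num) hm hdis rp
    (by decide) (by decide) Mt hMt 4 (by norm_num) PP hP ss_inj 0 cc_zero v μ hv0 hv hu
    (κ := κ) (by rw [← hκ]; exact Finset.sum_congr rfl fun i _ => by rw [szc_eq]) hκ0
  refine ⟨χ, ?_, _, exact.2.2.1, hF⟩
  rw [hχ, exact.2.2.1]
  norm_num

theorem exists_1776888 :
    ∃ χ : IrrCharacter Cfsg.Spor.J4, (χ : Cfsg.Spor.J4 → ℂ) 1 = (1776888 : ℕ) ∧
      ∃ B : Subgroup Cfsg.Spor.J4, B.index = 173067389 ∧ Fix B (χ : Cfsg.Spor.J4 → ℂ) := by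
  obtain ⟨e0, e1, e2, e3, e4, e5, e6⟩ := vB_eq
  have key := main (vB) (517) (161293/1656) e0 ?_ ?_ ?_ (by norm_num)
  · obtain ⟨χ, hχ, hF⟩ := key
    refine ⟨χ, ?_, hF⟩
    push_cast
    linear_combination (1656/161293) * hχ
  · intro i
    obtain ⟨r0, r1, r2, r3, r4, r5, r6⟩ := rows (vB)
    fin_cases i
    · show ∑ j, (PP 0 j : ℂ) * vB j = (517) * vB 0
      rw [r0, e0, e1, e2, e3, e4, e5, e6]
      norm_num
    · show ∑ j, (PP 1 j : ℂ) * vB j = (517) * vB 1
      rw [r1, e0, e1, e2, e3, e4, e5, e6]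
      norm_num
    · show ∑ j, (PP 2 j : ℂ) * vB j = (517) * vB 2
      rw [r2, e0, e1, e2, e3, e4, e5, e6]
      norm_num
    · show ∑ j, (PP 3 j : ℂ) * vB j = (517) * vB 3
      rw [r3, e0, e1, e2, e3, e4, e5, e6]
      norm_num
    · show ∑ j, (PP 4 j : ℂ) * vB j = (517) * vB 4
      rw [r4, e0, e1, e2, e3, e4, e5, e6]
      norm_num
    · show ∑ j, (PP 5 j : ℂ) * vB j = (517) * vB 5
      rw [r5, e0, e1, e2, e3, e4, e5, e6]
      norm_num
    · show ∑ j, (PP 6 j : ℂ) * vB j = (517) * vB 6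
      rw [r6, e0, e1, e2, e3, e4, e5, e6]
      norm_num
  · intro x hx
    obtain ⟨r0, r1, r2, r3, r4, r5, r6⟩ := rows x
    have h0 := hx 0
    have h1 := hx 1
    have h2 := hx 2
    have h3 := hx 3
    have h4 := hx 4
    have h5 := hx 5
    have h6 := hx 6
    rw [r0] at h0
    rw [r1] at h1
    rw [r2] at h2
    rw [r3] at h3
    rw [r4] at h4
    rw [r5] at h5
    rw [r6] at h6
    intro i
    fin_cases i
    · show x 0 = x 0 * vB 0
      rw [e0]
      ring
    · show x 1 = x 0 * vB 1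
      rw [e1]
      linear_combination (1/15180) * h0
    · show x 2 = x 0 * vB 2
      rw [e2]
      linear_combination (-35743815/406163109352) * h0 + (-8476425/802693892) * h1 + (6694733/315344029) * h2 + (20808180/315344029) * h3 + (-188105760/315344029) * h4 + (163982880/315344029) * h5
    · show x 3 = x 0 * vB 3
      rw [e3]
      linear_combination (-8538307/6092446640280) * h0 + (-913771/3210775568) * h1 + (2119647/2522752232) * h2 + (414075/315344029) * h3 + (-6231048/315344029) * h4 + (5663720/315344029) * h5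
    · show x 4 = x 0 * vB 4
      rw [e4]
      linear_combination (289537735/116974975493376) * h0 + (43496335/154117227264) * h1 + (-19412615/40364035712) * h2 + (-10170945/10091008928) * h3 + (15224877/1261376116) * h4 + (-13620045/1261376116) * h5
    · show x 5 = x 0 * vB 5
      rw [e5]
      linear_combination (-3553997/3749197932480) * h0 + (-49519/987930944) * h1 + (87081/776231456) * h2 + (86173/194057864) * h3 + (-87105/48514466) * h4 + (65907/48514466) * h5
    · show x 6 = x 0 * vB 6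
      rw [e6]
      linear_combination (-4954289/18494067271680) * h0 + (-6488789/112085256192) * h1 + (1884745/29355662336) * h2 + (122121/7338915584) * h3 + (-8107927/3669457792) * h4 + (517185/229341112) * h5
  · rw [sum_ss (fun i => vB i ^ 2), e0, e1, e2, e3, e4, e5, e6]
    norm_num

/-- **`p = 2`** -/
theorem imc_two [Fact (Nat.Prime 2)] : IMC 2 Cfsg.Spor.J4 := by
  have hfin : Finite Cfsg.Spor.J4 := exact.1
  obtain ⟨χ, hχ, B, hB, hF⟩ := exists_1776888
  exact Sph.imc_of B (by rw [hB]; decide) (d := 1776888) (by decide) ⟨χ, hχ, hF⟩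

/-- **The Malle–Navarro character condition for `J₄`.** -/
theorem imc_j4 {S : Type u} [Group S] [Finite S] (h : Spor.IsoJ4 S) {p : ℕ} [hp : Fact p.Prime] (hd : p ∣ Nat.card S) :
    IMC p S := by
  have hc : Nat.card S = 86775571046077562880 := by
    obtain ⟨e⟩ := h
    rw [Nat.card_congr e.toEquiv]
    exact exact.2.1
  have hdz : ∀ n : ℕ, ¬ p ^ (n + 1) ∣ 86775571046077562880 → p ^ n ∈ [27, 7, 1331, 23, 29, 31, 37, 43] → IMC p S := by
    intro n hn hm
    obtain ⟨d, ⟨χ, rfl⟩, hdv⟩ := H653.Spor.J4Dz.exists_deg h hm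
    refine IMC.of_defect_zero hd χ ((pow_dvd_pow p ?_).trans hdv)
    by_contra hlt
    push Not at hlt
    have := (hp.out.pow_dvd_iff_le_factorization Nat.card_pos.ne').2 hlt
    rw [hc] at this
    exact hn this
  have h1 : p = 2 ∨ p = 3 ∨ p = 5 ∨ p = 7 ∨ p = 11 ∨ p = 23 ∨ p = 29 ∨ p = 31 ∨ p = 37 ∨ p = 43 := by
    have hd' := hd
    rw [hc, show 86775571046077562880 = 2 ^ 21 * 3 ^ 3 * 5 * 7 * 11 ^ 3 * 23 * 29 * 31 * 37 * 43 by norm_num] at hd'
    simp only [hp.out.dvd_mul] at hd'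
    have key : ∀ {q k : ℕ}, q.Prime → p ∣ q ^ k → p = q := fun hq h =>
      (Nat.prime_dvd_prime_iff_eq hp.out hq).1 (hp.out.dvd_of_dvd_pow h)
    have key' : ∀ {q : ℕ}, q.Prime → p ∣ q → p = q := fun hq h => (Nat.prime_dvd_prime_iff_eq hp.out hq).1 h
    rcases hd' with ((((((((h | h) | h) | h) | h) | h) | h) | h) | h) | h
    · exact Or.inl (key Nat.prime_two h)
    · exact Or.inr (Or.inl (key Nat.prime_three h))
    · exact Or.inr (Or.inr (Or.inl (key' (by norm_num) h)))
    · exact Or.inr (Or.inr (Or.inr (Or.inl (key' (by norm_num) h))))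
    · exact Or.inr (Or.inr (Or.inr (Or.inr (Or.inl (key (by norm_num) h)))))
    · exact Or.inr (Or.inr (Or.inr (Or.inr (Or.inr (Or.inl (key' (by norm_num) h))))))
    · exact Or.inr (Or.inr (Or.inr (Or.inr (Or.inr (Or.inr (Or.inl (key' (by norm_num) h)))))))
    · exact Or.inr (Or.inr (Or.inr (Or.inr (Or.inr (Or.inr (Or.inr (Or.inl (key' (by norm_num) h))))))))
    · exact Or.inr (Or.inr (Or.inr (Or.inr (Or.inr (Or.inr (Or.inr (Or.inr (Or.inl (key' (by norm_num) h)))))))))
    · exact Or.inr (Or.inr (Or.inr (Or.inr (Or.inr (Or.inr (Or.inr (Or.inr (Or.inr (key' (by norm_num) h)))))))))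
  rcases h1 with rfl | rfl | rfl | rfl | rfl | rfl | rfl | rfl | rfl | rfl
  · obtain ⟨e⟩ := h
    exact IMC.of_equiv e imc_two
  · exact hdz 3 (by decide) (by decide)
  · exact imc_of_exact hd (by rw [hc]; decide) (H492.IMJ4.im_j4 h hd)
  · exact hdz 1 (by decide) (by decide)
  · exact hdz 3 (by decide) (by decide)
  · exact hdz 1 (by decide) (by decide)
  · exact hdz 1 (by decide) (by decide)
  · exact hdz 1 (by decide) (by decide)
  · exact hdz 1 (by decide) (by decide)
  · exact hdz 1 (by decide) (by decide)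

end Cfsg.Agent.H941.Imc.JFour
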